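import Cfsg.Agent.H325.IF.Inv4
import Cfsg.Agent.H989.Fx.Cls
import Cfsg.Agent.UGT.U2.FOne.OrthSub

/-!
# S5719, `POmega_8^+(q)`, `q` odd: the subgroup `SL₂(q)⁴` (helper886)

* `exists_eight` : a fundamental involution gives two perpendicular 4-spaces of plus type;
* `inv_two`, `inv_half` : the products of two elements of square `-1`;
* `package` : four commuting `SL₂ → P Q` with `-1 ↦ z`.
-/

set_option autoImplicit false
set_option linter.unusedSectionVars false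
set_option linter.unusedSimpArgs false

namespace Cfsg.Agent.H886.IF8

open QuadraticMap Module Cfsg.Agent.LieClassical Cfsg.Agent.LieClassical.OrthCore Cfsg.Agent.LieClassical.OrthTrans
open Cfsg.Agent.LieClassical.OrthFinite
open Cfsg.Agent.H989.Gs.Gen Cfsg.Agent.H989.Fx Cfsg.Agent.H325.IF
open Cfsg.Agent.ClassicalGeometry.OrthAut1 (P center_scalar mem_center_of_scalar)
open Cfsg.Agent.UGT.U2.FOne.Orth (Four)
open Matrix (SpecialLinearGroup)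

universe u v

variable {F : Type u} {V : Type v} [Field F] [AddCommGroup V] [Module F V] {Q : QuadraticForm F V}

/-- `SL₂(F)` -/
abbrev SL2 (F : Type u) [Field F] : Type u := SpecialLinearGroup (Fin 2) F

theorem ap_rhoE {e₁ f₁ e₂ f₂ : V} (h : Four Q e₁ f₁ e₂ f₂) (M : SL2 F) (v : V) : ap (h.rhoE M) v = h.rho M v := rfl

/-- a fundamental involution is the `-1` of an `SL₂` -/
theorem of_fund {z : ↥(E Q)} (hz : Fund Q z) :
    ∃ (e₁ f₁ e₂ f₂ : V) (h : Four Q e₁ f₁ e₂ f₂), z = h.rhoE (-1) := by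
  obtain ⟨e₁, f₁, e₂, f₂, h, h1, h2, h3, h4, h5⟩ := hz
  refine ⟨e₁, f₁, e₂, f₂, h, ext_ap fun v => ?_⟩
  rw [fund_ap h h1 h2 h3 h4 h5 v, ap_rhoE, h.rho_neg]
  module

/-! ### one half -/

section half

variable {e₁ f₁ e₂ f₂ : V} (h : Four Q e₁ f₁ e₂ f₂)

/-- `v` is perpendicular to the four vectors -/
def Pp (Q : QuadraticForm F V) (e₁ f₁ e₂ f₂ v : V) : Prop :=
  polar Q e₁ v = 0 ∧ polar Q f₁ v = 0 ∧ polar Q e₂ v = 0 ∧ polar Q f₂ v = 0

/-- `SL₂ × SL₂` on the 4-space -/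
def two : SL2 F × SL2 F →* ↥(E Q) := MonoidHom.noncommCoprod h.rhoE h.swap.rhoE fun M N => h.comm_swap M N

theorem two_apply (x : SL2 F × SL2 F) : two h x = h.rhoE x.1 * h.swap.rhoE x.2 := rfl

theorem ap_two (x : SL2 F × SL2 F) (v : V) : ap (two h x) v = h.rho x.1 (h.swap.rho x.2 v) := rfl

theorem two_perp {v : V} (hv : Pp Q e₁ f₁ e₂ f₂ v) (x : SL2 F × SL2 F) : ap (two h x) v = v := by
  obtain ⟨h1, h2, h3, h4⟩ := hv
  rw [ap_two, h.swap.rho_perp h1 h2 h4 h3, h.rho_perp h1 h2 h3 h4]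

/-- combinations of the four vectors -/
def cb (e₁ f₁ e₂ f₂ : V) (a b c d : F) : V := a • e₁ + b • f₁ + c • e₂ + d • f₂

theorem ap_two_cb (x : SL2 F × SL2 F) (a b c d : F) :
    ap (two h x) (cb e₁ f₁ e₂ f₂ a b c d) = cb e₁ f₁ e₂ f₂
      (x.1.1 0 0 * (x.2.1 0 0 * a + x.2.1 0 1 * d) + x.1.1 0 1 * (-x.2.1 0 1 * b + x.2.1 0 0 * c))
      (x.1.1 1 1 * (x.2.1 1 1 * b - x.2.1 1 0 * c) - x.1.1 1 0 * (x.2.1 1 0 * a + x.2.1 1 1 * d))
      (x.1.1 1 0 * (x.2.1 0 0 * a + x.2.1 0 1 * d) + x.1.1 1 1 * (-x.2.1 0 1 * b + x.2.1 0 0 * c))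
      (-x.1.1 0 1 * (x.2.1 1 1 * b - x.2.1 1 0 * c) + x.1.1 0 0 * (x.2.1 1 0 * a + x.2.1 1 1 * d)) := by
  rw [ap_two, cb, cb]
  simp only [map_add, map_smul, h.swap.rho_e1, h.swap.rho_e2, h.swap.rho_f1, h.swap.rho_f2, h.rho_e1, h.rho_e2, h.rho_f1,
    h.rho_f2]
  module

include h in
theorem cb_eq {a b c d a' b' c' d' : F} (h0 : cb e₁ f₁ e₂ f₂ a b c d = cb e₁ f₁ e₂ f₂ a' b' c' d') :
    a = a' ∧ b = b' ∧ c = c' ∧ d = d' := by
  have h1 : (a - a') • e₁ + (b - b') • f₁ + (c - c') • e₂ + (d - d') • f₂ = 0 := by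
    have h2 := sub_eq_zero.2 h0
    rw [← h2, cb, cb]
    module
  obtain ⟨h2, h3, h4, h5⟩ := h.indep h1
  exact ⟨sub_eq_zero.1 h2, sub_eq_zero.1 h3, sub_eq_zero.1 h4, sub_eq_zero.1 h5⟩

theorem perp_cb {v : V} (hv : Pp Q e₁ f₁ e₂ f₂ v) (a b c d : F) : polar Q (cb e₁ f₁ e₂ f₂ a b c d) v = 0 := by
  obtain ⟨h1, h2, h3, h4⟩ := hv
  rw [cb]
  simp only [polar_add_left, polar_smul_left, h1, h2, h3, h4]
  simp

theorem ext_SL2 {M : SL2 F} {s : F} (h00 : M.1 0 0 = s) (h01 : M.1 0 1 = 0) (h10 : M.1 1 0 = 0) (h11 : M.1 1 1 = s) :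
    M = 1 ∧ s = 1 ∨ M = -1 ∧ s = -1 := by
  have hdet := M.2
  rw [Matrix.det_fin_two, h00, h01, h10, h11] at hdet
  have h1 : (s - 1) * (s + 1) = 0 := by linear_combination hdet
  rcases mul_eq_zero.1 h1 with h2 | h2
  · left
    have h3 : s = 1 := by linear_combination h2
    refine ⟨?_, h3⟩
    ext i j
    fin_cases i <;> fin_cases j
    · simpa using h00.trans h3
    · simpa using h01
    · simpa using h10
    · simpa using h11.trans h3
  · right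
    have h3 : s = -1 := by linear_combination h2
    refine ⟨?_, h3⟩
    ext i j
    fin_cases i <;> fin_cases j
    · simpa using h00.trans h3
    · simpa using h01
    · simpa using h10
    · simpa using h11.trans h3

/-- elements acting as scalars on the 4-space -/
theorem two_scalar {x : SL2 F × SL2 F} {c : F} (hc : ∀ a b c' d : F, ap (two h x) (cb e₁ f₁ e₂ f₂ a b c' d) =
    c • cb e₁ f₁ e₂ f₂ a b c' d) :
    (x = (1, 1) ∧ c = 1) ∨ (x = (-1, -1) ∧ c = 1) ∨ (x = (1, -1) ∧ c = -1) ∨ (x = (-1, 1) ∧ c = -1) := by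
  have hs : ∀ a b c' d : F, c • cb e₁ f₁ e₂ f₂ a b c' d = cb e₁ f₁ e₂ f₂ (c * a) (c * b) (c * c') (c * d) := by
    intro a b c' d
    rw [cb, cb]
    module
  have k1 := hc 1 0 0 0
  have k2 := hc 0 0 1 0
  have k3 := hc 0 0 0 1
  rw [ap_two_cb, hs] at k1 k2 k3
  obtain ⟨a1, -, a3, a4⟩ := cb_eq h k1
  obtain ⟨b1, -, b3, -⟩ := cb_eq h k2
  obtain ⟨c1, -, -, c4⟩ := cb_eq h k3
  simp only [mul_one, mul_zero, add_zero, zero_add, sub_zero, neg_mul, neg_zero, sub_self] at a1 a3 a4 b1 b3 c1 c4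
  have hc0 : c ≠ 0 := by
    rintro rfl
    have h1 := hc 1 0 0 0
    rw [zero_smul] at h1
    have h2 : cb e₁ f₁ e₂ f₂ (1 : F) 0 0 0 = 0 := by
      rw [← ap_inv_ap (two h x) (cb e₁ f₁ e₂ f₂ (1 : F) 0 0 0), h1]
      exact map_zero _
    have h3 : cb e₁ f₁ e₂ f₂ (1 : F) 0 0 0 = cb e₁ f₁ e₂ f₂ (0 : F) 0 0 0 := by
      rw [h2, cb]; simp
    exact one_ne_zero (cb_eq h h3).1
  have hx0 : x.1.1 0 0 ≠ 0 := by
    intro h1
    rw [h1, zero_mul] at a1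
    exact hc0 a1.symm
  have hy0 : x.2.1 0 0 ≠ 0 := by
    intro h1
    rw [h1, mul_zero] at a1
    exact hc0 a1.symm
  have hx10 : x.1.1 1 0 = 0 := (mul_eq_zero.1 a3).resolve_right hy0
  have hy10 : x.2.1 1 0 = 0 := (mul_eq_zero.1 a4).resolve_left hx0
  have hx01 : x.1.1 0 1 = 0 := (mul_eq_zero.1 b1).resolve_right hy0
  have hy01 : x.2.1 0 1 = 0 := (mul_eq_zero.1 c1).resolve_left hx0
  have hx11 : x.1.1 1 1 = x.1.1 0 0 := mul_right_cancel₀ hy0 (b3.trans a1.symm)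
  have hy11 : x.2.1 1 1 = x.2.1 0 0 := mul_left_cancel₀ hx0 (c4.trans a1.symm)
  rcases ext_SL2 rfl hx01 hx10 hx11 with ⟨h1, h1'⟩ | ⟨h1, h1'⟩ <;>
    rcases ext_SL2 rfl hy01 hy10 hy11 with ⟨h2, h2'⟩ | ⟨h2, h2'⟩
  · exact Or.inl ⟨Prod.ext h1 h2, by rw [← a1, h1', h2', mul_one]⟩
  · exact Or.inr (Or.inr (Or.inl ⟨Prod.ext h1 h2, by rw [← a1, h1', h2', one_mul]⟩))
  · exact Or.inr (Or.inr (Or.inr ⟨Prod.ext h1 h2, by rw [← a1, h1', h2', mul_one]⟩))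
  · exact Or.inr (Or.inl ⟨Prod.ext h1 h2, by rw [← a1, h1', h2', neg_mul_neg, one_mul]⟩)

theorem rho_neg_cb (a b c d : F) : ap (h.rhoE (-1)) (cb e₁ f₁ e₂ f₂ a b c d) = -cb e₁ f₁ e₂ f₂ a b c d := by
  have h1 : h.rhoE (-1) = two h (-1, 1) := by rw [two_apply, map_one, mul_one]
  rw [h1, ap_two_cb, cb, cb]
  simp
  module

theorem rho_neg_perp {v : V} (hv : Pp Q e₁ f₁ e₂ f₂ v) : ap (h.rhoE (-1)) v = v := by
  have h1 : h.rhoE (-1) = two h (-1, 1) := by rw [two_apply, map_one, mul_one]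
  rw [h1, two_perp h hv]

end half

/-! ### the two halves -/

/-- two perpendicular 4-spaces of plus type -/
structure Eight (Q : QuadraticForm F V) (e₁ f₁ e₂ f₂ e₃ f₃ e₄ f₄ : V) : Prop where
  h : Four Q e₁ f₁ e₂ f₂
  k : Four Q e₃ f₃ e₄ f₄
  p3 : Pp Q e₁ f₁ e₂ f₂ e₃
  q3 : Pp Q e₁ f₁ e₂ f₂ f₃
  p4 : Pp Q e₁ f₁ e₂ f₂ e₄
  q4 : Pp Q e₁ f₁ e₂ f₂ f₄
  span : ∀ v : V, ∃ a b c d a' b' c' d' : F, v = cb e₁ f₁ e₂ f₂ a b c d + cb e₃ f₃ e₄ f₄ a' b' c' d'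

namespace Eight

variable {e₁ f₁ e₂ f₂ e₃ f₃ e₄ f₄ : V} (H : Eight Q e₁ f₁ e₂ f₂ e₃ f₃ e₄ f₄)

include H in
theorem symm : Eight Q e₃ f₃ e₄ f₄ e₁ f₁ e₂ f₂ where
  h := H.k
  k := H.h
  p3 := ⟨polar_zero_of_comm H.p3.1, polar_zero_of_comm H.q3.1, polar_zero_of_comm H.p4.1, polar_zero_of_comm H.q4.1⟩
  q3 := ⟨polar_zero_of_comm H.p3.2.1, polar_zero_of_comm H.q3.2.1, polar_zero_of_comm H.p4.2.1,
    polar_zero_of_comm H.q4.2.1⟩
  p4 := ⟨polar_zero_of_comm H.p3.2.2.1, polar_zero_of_comm H.q3.2.2.1, polar_zero_of_comm H.p4.2.2.1,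
    polar_zero_of_comm H.q4.2.2.1⟩
  q4 := ⟨polar_zero_of_comm H.p3.2.2.2, polar_zero_of_comm H.q3.2.2.2, polar_zero_of_comm H.p4.2.2.2,
    polar_zero_of_comm H.q4.2.2.2⟩
  span v := by
    obtain ⟨a, b, c, d, a', b', c', d', hv⟩ := H.span v
    exact ⟨a', b', c', d', a, b, c, d, by rw [hv, add_comm]⟩

include H in
theorem pp (a b c d : F) : Pp Q e₁ f₁ e₂ f₂ (cb e₃ f₃ e₄ f₄ a b c d) := by
  have k : ∀ v : V, polar Q v e₃ = 0 → polar Q v f₃ = 0 → polar Q v e₄ = 0 → polar Q v f₄ = 0 →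
      polar Q v (cb e₃ f₃ e₄ f₄ a b c d) = 0 := by
    intro v h1 h2 h3 h4
    rw [cb]
    simp only [polar_add_right, polar_smul_right, h1, h2, h3, h4]
    simp
  exact ⟨k _ H.p3.1 H.q3.1 H.p4.1 H.q4.1, k _ H.p3.2.1 H.q3.2.1 H.p4.2.1 H.q4.2.1,
    k _ H.p3.2.2.1 H.q3.2.2.1 H.p4.2.2.1 H.q4.2.2.1, k _ H.p3.2.2.2 H.q3.2.2.2 H.p4.2.2.2 H.q4.2.2.2⟩

/-- the action on a sum -/
theorem ap_mul (x y : SL2 F × SL2 F) (a b c d a' b' c' d' : F) :
    ap (two H.h x * two H.k y) (cb e₁ f₁ e₂ f₂ a b c d + cb e₃ f₃ e₄ f₄ a' b' c' d') =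
      ap (two H.h x) (cb e₁ f₁ e₂ f₂ a b c d) + ap (two H.k y) (cb e₃ f₃ e₄ f₄ a' b' c' d') := by
  rw [Cfsg.Agent.H989.Gs.Gen.ap_mul, ap_add, two_perp H.k (H.symm.pp a b c d), ap_add]
  congr 1
  rw [ap_two_cb H.k]
  exact two_perp H.h (H.pp _ _ _ _) x

theorem comm (x y : SL2 F × SL2 F) : two H.h x * two H.k y = two H.k y * two H.h x := by
  refine ext_ap fun v => ?_
  obtain ⟨a, b, c, d, a', b', c', d', rfl⟩ := H.span v
  rw [H.ap_mul, add_comm (cb e₁ f₁ e₂ f₂ a b c d), H.symm.ap_mul, add_comm]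

theorem z_mul (v : V) : ap (H.h.rhoE (-1) * H.k.rhoE (-1)) v = -v := by
  obtain ⟨a, b, c, d, a', b', c', d', rfl⟩ := H.span v
  have h1 : H.h.rhoE (-1) = two H.h (-1, 1) := by rw [two_apply, map_one, mul_one]
  have h2 : H.k.rhoE (-1) = two H.k (-1, 1) := by rw [two_apply, map_one, mul_one]
  rw [h1, h2, H.ap_mul, ← h1, ← h2, rho_neg_cb, rho_neg_cb, neg_add]

end Eight

/-! ### existence -/

theorem exists_cb [FiniteDimensional F V] {e₁ f₁ e₂ f₂ : V} (h : Four Q e₁ f₁ e₂ f₂) {U : Submodule F V}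
    (hU : finrank F U = 4) (m1 : e₁ ∈ U) (m2 : f₁ ∈ U) (m3 : e₂ ∈ U) (m4 : f₂ ∈ U) {v : V} (hv : v ∈ U) :
    ∃ a b c d : F, v = cb e₁ f₁ e₂ f₂ a b c d := by
  have h1 : Submodule.span F (Set.range ![e₁, f₁, e₂, f₂]) = U := by
    apply Submodule.eq_of_le_of_finrank_eq
    · rw [Submodule.span_le]
      rintro _ ⟨i, rfl⟩
      fin_cases i <;> assumption
    · rw [finrank_span_eq_card (linInd_four h), Fintype.card_fin, hU]
  rw [← h1, Submodule.mem_span_range_iff_exists_fun] at hv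
  obtain ⟨c, hc⟩ := hv
  rw [Fin.sum_univ_four] at hc
  exact ⟨c 0, c 1, c 2, c 3, hc.symm⟩

theorem dc_eight [Fintype F] [DecidableEq F] [FiniteDimensional F V] (h2 : (2 : F) ≠ 0) (hT : Ty Q 8 1) :
    Cfsg.Agent.H160.QDisc.dc Q = 1 := by
  rw [Ty.disc_eq h2 4 hT]
  rcases quadraticChar_dichotomy (neg_ne_zero.2 (one_ne_zero (α := F))) with h | h <;> rw [h] <;> norm_num

/-- **a fundamental involution of `Ω₈⁺` gives the configuration** -/
theorem exists_eight [Finite F] [FiniteDimensional F V] (h2 : (2 : F) ≠ 0) (hG : Good Q) (hT : Ty Q 8 1)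
    {z : ↥(E Q)} (hz : Fund Q z) :
    ∃ (e₁ f₁ e₂ f₂ e₃ f₃ e₄ f₄ : V) (H : Eight Q e₁ f₁ e₂ f₂ e₃ f₃ e₄ f₄), z = H.h.rhoE (-1) := by
  classical
  cases nonempty_fintype F
  have hz2 := fund_mul_self hz
  have hd := finrank_Vm_of_fund h2 hz
  obtain ⟨e₁, f₁, e₂, f₂, h, h1, h1', h3, h4, h5⟩ := hz
  have hV : finrank F (Vp z) = 4 := by
    have h6 := Submodule.finrank_add_eq_of_isCompl (isCompl h2 hz2)
    rw [hT.dim] at h6
    omega
  obtain ⟨e₃, f₃, e₄, f₄, k, m1, m2, m3, m4, -⟩ :=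
    exists_four h2 (nondeg_Vp h2 hG.nondeg hz2) hV ((dc_Vp h2 hz2 hG).trans (dc_eight h2 hT))
  have n1 : e₁ ∈ Vm z := mem_Vm.2 h1
  have n2 : f₁ ∈ Vm z := mem_Vm.2 h1'
  have n3 : e₂ ∈ Vm z := mem_Vm.2 h3
  have n4 : f₂ ∈ Vm z := mem_Vm.2 h4
  refine ⟨e₁, f₁, e₂, f₂, e₃, f₃, e₄, f₄, ⟨h, k, ?_, ?_, ?_, ?_, ?_⟩, ?_⟩
  · exact ⟨polar_Vm_Vp h2 n1 m1, polar_Vm_Vp h2 n2 m1, polar_Vm_Vp h2 n3 m1, polar_Vm_Vp h2 n4 m1⟩
  · exact ⟨polar_Vm_Vp h2 n1 m2, polar_Vm_Vp h2 n2 m2, polar_Vm_Vp h2 n3 m2, polar_Vm_Vp h2 n4 m2⟩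
  · exact ⟨polar_Vm_Vp h2 n1 m3, polar_Vm_Vp h2 n2 m3, polar_Vm_Vp h2 n3 m3, polar_Vm_Vp h2 n4 m3⟩
  · exact ⟨polar_Vm_Vp h2 n1 m4, polar_Vm_Vp h2 n2 m4, polar_Vm_Vp h2 n3 m4, polar_Vm_Vp h2 n4 m4⟩
  · intro v
    have hv : v ∈ Vm z ⊔ Vp z := by
      rw [(isCompl h2 hz2).codisjoint.eq_top]
      exact Submodule.mem_top
    obtain ⟨a, ha, b, hb, rfl⟩ := Submodule.mem_sup.1 hv
    obtain ⟨x, y, z', w, rfl⟩ := exists_cb h hd n1 n2 n3 n4 ha
    obtain ⟨x', y', z'', w', rfl⟩ := exists_cb k hV m1 m2 m3 m4 hb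
    exact ⟨x, y, z', w, x', y', z'', w', rfl⟩
  · refine ext_ap fun v => ?_
    rw [fund_ap h h1 h1' h3 h4 h5 v, ap_rhoE, h.rho_neg]
    module

/-! ### products of elements of square `-1` -/

theorem ne_pm (h2 : (2 : F) ≠ 0) {s : SL2 F} (hs : s * s = -1) : s ≠ 1 ∧ s ≠ -1 := by
  have h1 : (1 : SL2 F) ≠ -1 := by
    intro h
    have h3 := congrArg (fun M : SL2 F => M.1 0 0) h
    simp at h3
    apply h2
    linear_combination h3
  constructor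
  · rintro rfl
    rw [mul_one] at hs
    exact h1 hs
  · rintro rfl
    rw [neg_mul_neg, one_mul] at hs
    exact h1 hs

section inv

variable [Finite F] [FiniteDimensional F V]

/-- in the same half: an involution of rank two -/
theorem inv_two (h2 : (2 : F) ≠ 0) (hG : Good Q) {e₁ f₁ e₂ f₂ : V} (h : Four Q e₁ f₁ e₂ f₂) {s t : SL2 F}
    (hs : s * s = -1) (ht : t * t = -1) :
    two h (s, t) * two h (s, t) = 1 ∧ finrank F (Vm (two h (s, t))) = 2 := by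
  obtain ⟨s1, s2⟩ := ne_pm h2 hs
  have g2 : two h (s, t) * two h (s, t) = 1 := by
    rw [← map_mul]
    show two h (s * s, t * t) = 1
    rw [hs, ht, two_apply]
    show h.rhoE (-1) * h.swap.rhoE (-1) = 1
    rw [h.rhoE_neg_swap, ← map_mul, neg_mul_neg, one_mul, map_one]
  refine ⟨g2, ?_⟩
  have key : ∀ c : F, (∀ a b c' d : F, ap (two h (s, t)) (cb e₁ f₁ e₂ f₂ a b c' d) = c • cb e₁ f₁ e₂ f₂ a b c' d) →
      False := by
    intro c hc
    rcases two_scalar h hc with ⟨h1, -⟩ | ⟨h1, -⟩ | ⟨h1, -⟩ | ⟨h1, -⟩ <;> rw [Prod.mk.injEq] at h1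
    · exact s1 h1.1
    · exact s2 h1.1
    · exact s1 h1.1
    · exact s2 h1.1
  have hW : finrank F (Submodule.span F (Set.range ![e₁, f₁, e₂, f₂])) = 4 := by
    rw [finrank_span_eq_card (linInd_four h), Fintype.card_fin]
  have w1 : e₁ ∈ Submodule.span F (Set.range ![e₁, f₁, e₂, f₂]) := Submodule.subset_span ⟨0, rfl⟩
  have w2 : f₁ ∈ Submodule.span F (Set.range ![e₁, f₁, e₂, f₂]) := Submodule.subset_span ⟨1, rfl⟩
  have w3 : e₂ ∈ Submodule.span F (Set.range ![e₁, f₁, e₂, f₂]) := Submodule.subset_span ⟨2, rfl⟩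
  have w4 : f₂ ∈ Submodule.span F (Set.range ![e₁, f₁, e₂, f₂]) := Submodule.subset_span ⟨3, rfl⟩
  have wc : ∀ a b c d : F, cb e₁ f₁ e₂ f₂ a b c d ∈ Submodule.span F (Set.range ![e₁, f₁, e₂, f₂]) := by
    intro a b c d
    exact add_mem (add_mem (add_mem (Submodule.smul_mem _ _ w1) (Submodule.smul_mem _ _ w2))
      (Submodule.smul_mem _ _ w3)) (Submodule.smul_mem _ _ w4)
  have hg1 : two h (s, t) ≠ 1 := by
    intro h1
    refine key 1 fun a b c d => ?_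
    rw [h1, ap_one, one_smul]
  have hmv : ∀ v, ap (two h (s, t)) v - v ∈ Submodule.span F (Set.range ![e₁, f₁, e₂, f₂]) := by
    intro v
    obtain ⟨v', hv', a, b, c, d, rfl⟩ := exists_four_comb h v
    have h1 : v' + a • e₁ + b • f₁ + c • e₂ + d • f₂ = v' + cb e₁ f₁ e₂ f₂ a b c d := by
      rw [cb]; abel
    rw [h1, ap_add, two_perp h hv', add_sub_add_left_eq_sub, ap_two_cb]
    exact sub_mem (wc _ _ _ _) (wc _ _ _ _)
  rcases two_or_fund' h2 hG g2 hg1 ⟨_, hW.le, hmv⟩ with h3 | h3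
  · exact h3
  · exfalso
    have h4 := finrank_Vm_of_fund h2 h3
    have h5 : Vm (two h (s, t)) = Submodule.span F (Set.range ![e₁, f₁, e₂, f₂]) := by
      apply Submodule.eq_of_le_of_finrank_eq
      · intro v hv
        have h6 := hmv ((-(2 : F)⁻¹) • v)
        rw [ap_smul, mem_Vm.1 hv, smul_neg, neg_smul, neg_neg, sub_neg_eq_add, ← add_smul] at h6
        have h7 : (2 : F)⁻¹ + (2 : F)⁻¹ = 1 := by rw [← two_mul, mul_inv_cancel₀ h2]
        rwa [h7, one_smul] at h6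
      · rw [h4, hW]
    refine key (-1) fun a b c d => ?_
    rw [neg_smul, one_smul, ← mem_Vm, h5]
    exact wc a b c d

end inv

/-- in different halves: an element of square `-1` -/
theorem inv_half {e₁ f₁ e₂ f₂ e₃ f₃ e₄ f₄ : V} (H : Eight Q e₁ f₁ e₂ f₂ e₃ f₃ e₄ f₄) {x y : SL2 F × SL2 F}
    (hx : x * x = (-1, 1) ∨ x * x = (1, -1)) (hy : y * y = (-1, 1) ∨ y * y = (1, -1)) (v : V) :
    ap (two H.h x * two H.k y) (ap (two H.h x * two H.k y) v) = -v := by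
  have k : ∀ {a b c d : V} (h : Four Q a b c d) (x : SL2 F × SL2 F), (x * x = (-1, 1) ∨ x * x = (1, -1)) →
      two h x * two h x = h.rhoE (-1) := by
    intro a b c d h x hx
    rw [← map_mul]
    rcases hx with h1 | h1
    · rw [h1, two_apply, map_one, mul_one]
    · rw [h1, two_apply, map_one, one_mul, h.rhoE_neg_swap]
  have h1 : two H.h x * two H.k y * (two H.h x * two H.k y) = H.h.rhoE (-1) * H.k.rhoE (-1) := by
    rw [← k H.h x hx, ← k H.k y hy, mul_assoc, mul_assoc, ← mul_assoc (two H.k y), ← H.comm, mul_assoc]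
  rw [← Cfsg.Agent.H989.Gs.Gen.ap_mul, h1, H.z_mul]

/-! ### the four homomorphisms -/

section package

variable {T : Type*} [Group T] (π : ↥(E Q) →* T)

/-- the four homomorphisms -/
def fs {e₁ f₁ e₂ f₂ e₃ f₃ e₄ f₄ : V} (H : Eight Q e₁ f₁ e₂ f₂ e₃ f₃ e₄ f₄) : Fin 4 → (SL2 F →* T) :=
  ![π.comp H.h.rhoE, π.comp H.h.swap.rhoE, π.comp H.k.rhoE, π.comp H.k.swap.rhoE]

variable {e₁ f₁ e₂ f₂ e₃ f₃ e₄ f₄ : V} (H : Eight Q e₁ f₁ e₂ f₂ e₃ f₃ e₄ f₄)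

theorem rho_two {a b c d : V} (h : Four Q a b c d) (s : SL2 F) : h.rhoE s = two h (s, 1) := by
  rw [two_apply, map_one, mul_one]

theorem swap_two {a b c d : V} (h : Four Q a b c d) (s : SL2 F) : h.swap.rhoE s = two h (1, s) := by
  rw [two_apply, map_one, one_mul]

theorem comm_half (x y : SL2 F × SL2 F) : Commute (π (two H.h x)) (π (two H.k y)) := by
  rw [Commute, SemiconjBy, ← map_mul, H.comm, map_mul]

theorem comm_same {a b c d : V} (h : Four Q a b c d) (s t : SL2 F) : Commute (π (h.rhoE s)) (π (h.swap.rhoE t)) := by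
  have h1 : h.rhoE s * h.swap.rhoE t = h.swap.rhoE t * h.rhoE s := h.comm_swap s t
  rw [Commute, SemiconjBy, ← map_mul, h1, map_mul]

theorem fs_comm (i j : Fin 4) (hij : i ≠ j) (s t : SL2 F) : Commute (fs π H i s) (fs π H j t) := by
  have a0 : fs π H 0 = π.comp H.h.rhoE := rfl
  have a1 : fs π H 1 = π.comp H.h.swap.rhoE := rfl
  have a2 : fs π H 2 = π.comp H.k.rhoE := rfl
  have a3 : fs π H 3 = π.comp H.k.swap.rhoE := rfl
  have c02 : ∀ s t, Commute (π (H.h.rhoE s)) (π (H.k.rhoE t)) := fun s t => by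
    rw [rho_two, rho_two]; exact comm_half π H _ _
  have c03 : ∀ s t, Commute (π (H.h.rhoE s)) (π (H.k.swap.rhoE t)) := fun s t => by
    rw [rho_two, swap_two]; exact comm_half π H _ _
  have c12 : ∀ s t, Commute (π (H.h.swap.rhoE s)) (π (H.k.rhoE t)) := fun s t => by
    rw [swap_two, rho_two]; exact comm_half π H _ _
  have c13 : ∀ s t, Commute (π (H.h.swap.rhoE s)) (π (H.k.swap.rhoE t)) := fun s t => by
    rw [swap_two, swap_two]; exact comm_half π H _ _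
  fin_cases i <;> fin_cases j
  · exact absurd rfl hij
  · exact comm_same π H.h s t
  · exact c02 s t
  · exact c03 s t
  · exact (comm_same π H.h t s).symm
  · exact absurd rfl hij
  · exact c12 s t
  · exact c13 s t
  · exact (c02 t s).symm
  · exact (c12 t s).symm
  · exact absurd rfl hij
  · exact comm_same π H.k s t
  · exact (c03 t s).symm
  · exact (c13 t s).symm
  · exact (comm_same π H.k t s).symm
  · exact absurd rfl hij

theorem fs_neg (hker : ∀ g, π g = 1 ↔ g = 1 ∨ ∀ v, ap g v = -v) (i : Fin 4) :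
    fs π H i (-1) = π (H.h.rhoE (-1)) := by
  have h1 : π (H.h.rhoE (-1)) * π (H.h.rhoE (-1)) = 1 := by
    rw [← map_mul, ← map_mul, neg_mul_neg, one_mul, map_one, map_one]
  have h2 : π (H.h.rhoE (-1)) * π (H.k.rhoE (-1)) = 1 := by
    rw [← map_mul, hker]
    exact Or.inr H.z_mul
  have h3 : π (H.k.rhoE (-1)) = π (H.h.rhoE (-1)) := mul_left_cancel (h2.trans h1.symm)
  fin_cases i
  · rfl
  · show π (H.h.swap.rhoE (-1)) = _
    rw [H.h.rhoE_neg_swap]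
  · exact h3
  · show π (H.k.swap.rhoE (-1)) = _
    rw [H.k.rhoE_neg_swap, h3]

theorem fs_four (i : Fin 4) : ∃ (a b c d : V) (h : Four Q a b c d), ∀ s, fs π H i s = π (h.rhoE s) := by
  fin_cases i
  · exact ⟨_, _, _, _, H.h, fun _ => rfl⟩
  · exact ⟨_, _, _, _, H.h.swap, fun _ => rfl⟩
  · exact ⟨_, _, _, _, H.k, fun _ => rfl⟩
  · exact ⟨_, _, _, _, H.k.swap, fun _ => rfl⟩

theorem fs_sup [Finite F] [FiniteDimensional F V] (h2 : (2 : F) ≠ 0) (hG : Good Q) {p : T → Prop}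
    (hp0 : ∀ g : ↥(E Q), g * g = 1 → finrank F (Vm g) = 2 → p (π g))
    (hp1 : ∀ g : ↥(E Q), (∀ v, ap g (ap g v) = -v) → p (π g))
    (i j : Fin 4) (hij : i ≠ j) (s t : SL2 F) (hs : s * s = -1) (ht : t * t = -1) : p (fs π H i s * fs π H j t) := by
  have same : ∀ {a b c d : V} (h : Four Q a b c d) (s t : SL2 F), s * s = -1 → t * t = -1 →
      p (π (h.rhoE s) * π (h.swap.rhoE t)) := by
    intro a b c d h s t hs ht
    rw [← map_mul]
    obtain ⟨h1, h3⟩ := inv_two h2 hG h hs ht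
    exact hp0 _ h1 h3
  have half : ∀ x y : SL2 F × SL2 F, (x * x = (-1, 1) ∨ x * x = (1, -1)) → (y * y = (-1, 1) ∨ y * y = (1, -1)) →
      p (π (two H.h x) * π (two H.k y)) := by
    intro x y hx hy
    rw [← map_mul]
    exact hp1 _ (inv_half H hx hy)
  have l1 : ∀ s : SL2 F, s * s = -1 → (s, (1 : SL2 F)) * (s, 1) = (-1, 1) := fun s hs => by
    rw [Prod.mk_mul_mk, hs, mul_one]
  have l2 : ∀ s : SL2 F, s * s = -1 → ((1 : SL2 F), s) * (1, s) = (1, -1) := fun s hs => by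
    rw [Prod.mk_mul_mk, hs, mul_one]
  have c02 : ∀ s t : SL2 F, s * s = -1 → t * t = -1 → p (π (H.h.rhoE s) * π (H.k.rhoE t)) := fun s t hs ht => by
    rw [rho_two, rho_two]; exact half _ _ (Or.inl (l1 s hs)) (Or.inl (l1 t ht))
  have c03 : ∀ s t : SL2 F, s * s = -1 → t * t = -1 → p (π (H.h.rhoE s) * π (H.k.swap.rhoE t)) := fun s t hs ht => by
    rw [rho_two, swap_two]; exact half _ _ (Or.inl (l1 s hs)) (Or.inr (l2 t ht))
  have c12 : ∀ s t : SL2 F, s * s = -1 → t * t = -1 → p (π (H.h.swap.rhoE s) * π (H.k.rhoE t)) := fun s t hs ht => by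
    rw [swap_two, rho_two]; exact half _ _ (Or.inr (l2 s hs)) (Or.inl (l1 t ht))
  have c13 : ∀ s t : SL2 F, s * s = -1 → t * t = -1 → p (π (H.h.swap.rhoE s) * π (H.k.swap.rhoE t)) :=
    fun s t hs ht => by
      rw [swap_two, swap_two]; exact half _ _ (Or.inr (l2 s hs)) (Or.inr (l2 t ht))
  have hc := fs_comm π H i j hij s t
  fin_cases i <;> fin_cases j
  · exact absurd rfl hij
  · exact same H.h s t hs ht
  · exact c02 s t hs ht
  · exact c03 s t hs ht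
  · rw [hc.eq]; exact same H.h t s ht hs
  · exact absurd rfl hij
  · exact c12 s t hs ht
  · exact c13 s t hs ht
  · rw [hc.eq]; exact c02 t s ht hs
  · rw [hc.eq]; exact c12 t s ht hs
  · exact absurd rfl hij
  · exact same H.k s t hs ht
  · rw [hc.eq]; exact c03 t s ht hs
  · rw [hc.eq]; exact c13 t s ht hs
  · rw [hc.eq]; exact same H.k t s ht hs
  · exact absurd rfl hij

/-- **the package** for `eight_plus` -/
theorem package [Finite F] [FiniteDimensional F V] (h2 : (2 : F) ≠ 0) (hG : Good Q) (hT : Ty Q 8 1)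
    (hker : ∀ g, π g = 1 ↔ g = 1 ∨ ∀ v, ap g v = -v) {A : Subgroup T}
    (hA0 : ∀ g : ↥(E Q), g * g = 1 → finrank F (Vm g) = 2 → π g ∉ A)
    (hA1 : ∀ g : ↥(E Q), (∀ v, ap g (ap g v) = -v) → π g ∉ A) {z : ↥(E Q)} (hz : Fund Q z) :
    ∃ f : Fin 4 → (SL2 F →* T), (∀ i j, i ≠ j → ∀ s t, Commute (f i s) (f j t)) ∧ (∀ i, f i (-1) = π z) ∧
      (∀ i j, i ≠ j → ∀ s t, s * s = -1 → t * t = -1 → f i s * f j t ∉ A) ∧
      ∀ i, ∃ (a b c d : V) (h : Four Q a b c d), ∀ s, f i s = π (h.rhoE s) := by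
  obtain ⟨e₁, f₁, e₂, f₂, e₃, f₃, e₄, f₄, H, rfl⟩ := exists_eight h2 hG hT hz
  exact ⟨fs π H, fs_comm π H, fs_neg π H hker, fs_sup π H h2 hG (p := fun t => t ∉ A) hA0 hA1, fs_four π H⟩

/-- the involutions of `A` are fundamental -/
theorem lift_fund [Finite F] [FiniteDimensional F V] (h2 : (2 : F) ≠ 0) (hG : Good Q) (hT : Ty Q 8 1)
    (hπ : Function.Surjective π) (hker : ∀ g, π g = 1 ↔ g = 1 ∨ ∀ v, ap g v = -v) {A : Subgroup T}
    (hA0 : ∀ g : ↥(E Q), g * g = 1 → (finrank F (Vm g) = 2 ∨ finrank F (Vm g) = 6) → π g ∉ A)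
    (hA1 : ∀ g : ↥(E Q), (∀ v, ap g (ap g v) = -v) → π g ∉ A) {t : T} (ht : t ∈ A) (ho : orderOf t = 2) :
    ∃ g, Fund Q g ∧ π g = t := by
  obtain ⟨g, rfl⟩ := hπ t
  refine ⟨g, ?_, rfl⟩
  have h1 : π g ≠ 1 := by
    intro h
    rw [h, orderOf_one] at ho
    omega
  have h3 : π (g * g) = 1 := by
    have h4 := pow_orderOf_eq_one (π g)
    rw [ho, pow_two, ← map_mul] at h4
    exact h4
  rcases (hker _).1 h3 with h4 | h4
  · obtain ⟨⟨k, hk⟩, k2, k3⟩ := finrank_lift π hker h2 hG h4 h1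
    rw [hT.dim] at k3
    have h7 : finrank F (Vm g) = 2 ∨ finrank F (Vm g) = 6 ∨ finrank F (Vm g) = 4 := by omega
    rcases h7 with h7 | h7 | h7
    · exact absurd ht (hA0 g h4 (Or.inl h7))
    · exact absurd ht (hA0 g h4 (Or.inr h7))
    · exact fund_of_finrank h2 hG h4 h7
  · exact absurd ht (hA1 g fun v => by rw [← Cfsg.Agent.H989.Gs.Gen.ap_mul]; exact h4 v)

/-- the involutions of `A` are conjugate to `π z` -/
theorem class_one [Finite F] [FiniteDimensional F V] (h2 : (2 : F) ≠ 0) (hG : Good Q) (hT : Ty Q 8 1)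
    (hπ : Function.Surjective π) (hker : ∀ g, π g = 1 ↔ g = 1 ∨ ∀ v, ap g v = -v) {A : Subgroup T}
    (hA0 : ∀ g : ↥(E Q), g * g = 1 → (finrank F (Vm g) = 2 ∨ finrank F (Vm g) = 6) → π g ∉ A)
    (hA1 : ∀ g : ↥(E Q), (∀ v, ap g (ap g v) = -v) → π g ∉ A) {z : ↥(E Q)} (hz : Fund Q z) {t : T} (ht : t ∈ A)
    (ho : orderOf t = 2) : ∃ x : T, x * π z * x⁻¹ = t := by
  obtain ⟨g, hg, rfl⟩ := lift_fund π h2 hG hT hπ hker hA0 hA1 ht ho
  obtain ⟨x, hx⟩ := exists_conj_of_fund h2 hG hz hg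
  exact ⟨π x, by rw [← hx, map_mul, map_mul, map_inv]⟩

end package

end Cfsg.Agent.H886.IF8
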